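import Groth.Agent.CycB.StalkLoc
import Groth.Agent.Flat2B.FlatLocusAux
import Groth.Agent.Ega3B.FlatTensInv
import Groth.Agent.PerfB.TwistDer
import Groth.Prelude.Def_FlatMod2
import Mathlib.RingTheory.Flat.Localization

/-!
# Flatness over the base is stable under generization and is tested at the closed points
-/

set_option autoImplicit false
universe u

open CategoryTheory CategoryTheory.Limits AlgebraicGeometry Opposite TopologicalSpace

namespace Groth.Agent.Sga2lef.H106.UFlat

open Groth.Agent.CycB.StalkLoc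

variable {X S : Scheme.{u}} (f : X ⟶ S)

/-- The restriction of scalars of the specialization square. -/
theorem stalkMap_specializes {x ξ : X} (h : ξ ⤳ x) (r : S.presheaf.stalk (f.base x)) :
    (X.presheaf.stalkSpecializes h).hom ((f.stalkMap x).hom r) =
      (f.stalkMap ξ).hom ((S.presheaf.stalkSpecializes (h.map f.continuous)).hom r) := by
  have := Scheme.Hom.stalkSpecializes_stalkMap f ξ x h
  exact (congr(($this).hom r)).symm

/-- Flatness over the base is stable under generization. -/
theorem isFlatOverAt_of_specializes (Q : X.Modules) (hQ : Coh.IsQCoh Q) {x ξ : X} (h : ξ ⤳ x)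
    (hx : FlatMod.IsFlatOverAt f Q x) : FlatMod.IsFlatOverAt f Q ξ := by
  let aX : Algebra (S.presheaf.stalk (f.base x)) (X.presheaf.stalk x) := (f.stalkMap x).hom.toAlgebra
  let m0 : Module (S.presheaf.stalk (f.base x)) (Q.presheaf.stalk x) := FlatMod.moduleStalkOver f Q x
  let m1 : Module (S.presheaf.stalk (f.base ξ)) (Q.presheaf.stalk ξ) := FlatMod.moduleStalkOver f Q ξ
  let m2 : Module (X.presheaf.stalk x) (Q.presheaf.stalk ξ) := specMod Q h
  let hS : f.base ξ ⤳ f.base x := h.map f.continuous
  let aS : Algebra (S.presheaf.stalk (f.base x)) (S.presheaf.stalk (f.base ξ)) := specAlg hS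
  let m3 : Module (S.presheaf.stalk (f.base x)) (Q.presheaf.stalk ξ) :=
    Module.compHom _ (algebraMap (S.presheaf.stalk (f.base x)) (S.presheaf.stalk (f.base ξ)))
  have t1 : IsScalarTower (S.presheaf.stalk (f.base x)) (S.presheaf.stalk (f.base ξ)) (Q.presheaf.stalk ξ) :=
    IsScalarTower.of_algebraMap_smul fun _ _ => rfl
  have t2 : IsScalarTower (S.presheaf.stalk (f.base x)) (X.presheaf.stalk x) (Q.presheaf.stalk x) :=
    IsScalarTower.of_algebraMap_smul fun _ _ => rfl
  have t3 : IsScalarTower (S.presheaf.stalk (f.base x)) (X.presheaf.stalk x) (Q.presheaf.stalk ξ) := by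
    refine IsScalarTower.of_algebraMap_smul fun r m => ?_
    change (X.presheaf.stalkSpecializes h).hom ((f.stalkMap x).hom r) • m =
      (f.stalkMap ξ).hom ((S.presheaf.stalkSpecializes hS).hom r) • m
    rw [stalkMap_specializes f h r]
  have hl := isLocalizedModule_specLin Q hQ h
  have hfl : Module.Flat (S.presheaf.stalk (f.base x)) (Q.presheaf.stalk x) := hx
  have h1 : Module.Flat (S.presheaf.stalk (f.base x)) (Q.presheaf.stalk ξ) :=
    Flat2B.FlatLocusAux.flat_of_isLocalizedModule_source
      (RingHom.ker (Cyc.specMap x ξ h)).primeCompl (specLin Q h)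
  have hloc : IsLocalization.AtPrime (S.presheaf.stalk (f.base ξ))
      (RingHom.ker (Cyc.specMap (f.base x) (f.base ξ) hS)) :=
    CycB.LocQuot.isLocalization_stalkSpecializes hS
  exact (Module.flat_iff_of_isLocalization (S.presheaf.stalk (f.base ξ))
    (RingHom.ker (Cyc.specMap (f.base x) (f.base ξ) hS)).primeCompl (Q.presheaf.stalk ξ)).mpr h1

/-- **(U1)** On a quasi-compact scheme flatness over the base is tested at the closed points. -/
theorem isFlatOver_of_closedPoints [CompactSpace X] (Q : X.Modules) (hQ : Coh.IsQCoh Q)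
    (h : ∀ x : X, IsClosed ({x} : Set X) → FlatMod.IsFlatOverAt f Q x) : FlatMod.IsFlatOver f Q := by
  intro ξ
  obtain ⟨x, hx, hc⟩ := (isClosed_closure (s := ({ξ} : Set X))).exists_closed_singleton
    ⟨ξ, subset_closure rfl⟩
  exact isFlatOverAt_of_specializes f Q hQ (specializes_iff_mem_closure.mpr hx) (h x hc)

/-- **(U5)** Twisting on `P^r_A` preserves flatness over any base. -/
theorem isFlatOver_twM (r : ℕ) (A : Type u) [CommRing A] {S : Scheme.{u}} (f : CohB1.ProjSpace r A ⟶ S)
    (Q : (CohB1.ProjSpace r A).Modules) (hQ : FlatMod.IsFlatOver f Q) (m : ℤ) :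
    FlatMod.IsFlatOver f ((PerfB.TwistDer.twM r A m).obj Q) :=
  Ega3B.FlatTensInv.isFlatOver_tensor f (PerfB.TwistDer.isInvertible_tw r A m) hQ

end Groth.Agent.Sga2lef.H106.UFlat
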