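import Groth.Agent.Localalg.LCRows
import Groth.Agent.LoccohA.LCTComp
import Groth.Agent.FormalA.KLim
import Mathlib.RingTheory.TensorProduct.IsBaseChangeHom
import Mathlib.RingTheory.IsTensorProduct

/-!
# Flat base change for the maps on local cohomology induced by `I^{m+1}M ⊆ I^{n+1}M`
-/

set_option autoImplicit false
set_option linter.unusedVariables false
set_option linter.unusedSectionVars false
universe u

open CategoryTheory Limits TensorProduct
open Groth.Agent.Localalg.DeltaFun Groth.Agent.Localalg.Gam Groth.Agent.Localalg.LCAbs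
open Groth.Agent.Localalg Groth.Agent.FormalA.KLim
open Groth.Agent.LoccohA

namespace Groth.Agent.Sga2lef.H106.BC

variable {R : Type u} [CommRing R] [IsNoetherianRing R] (B : Type u) [CommRing B]
  [IsNoetherianRing B] [Algebra R B] [Module.Flat R B] (𝔮 : Ideal R)

/-- base change of a vanishing map on local cohomology. -/
theorem bc_zero (i : ℕ) {N N' : Type u} [AddCommGroup N] [Module R N] [AddCommGroup N']
    [Module R N'] (g : N →ₗ[R] N') {P P' : Type u} [AddCommGroup P] [Module B P]
    [AddCommGroup P'] [Module B P'] (h : P →ₗ[B] P') (e : (B ⊗[R] N) ≃ₗ[B] P)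
    (e' : (B ⊗[R] N') ≃ₗ[B] P') (comm : ∀ x, e' (g.baseChange B x) = h (e x))
    (h0 : ∀ z : LocCoh.H (𝔮.map (algebraMap R B)) i P,
      LCTComp.Hmap (𝔮.map (algebraMap R B)) i h z = 0)
    (y : LocCoh.H 𝔮 i N) : (1 : B) ⊗ₜ[R] (LCTComp.Hmap 𝔮 i g y) = 0 := by
  obtain ⟨E⟩ := LCRows.exists_bcIso B 𝔮 i
  have hnat := E.hom.naturality (ModuleCat.ofHom g)
  have h1 := congrArg (fun t => t.hom ((1 : B) ⊗ₜ[R] y)) hnat
  have hinj : Function.Injective (E.hom.app (ModuleCat.of R N')).hom :=
    ((E.app (ModuleCat.of R N')).toLinearEquiv).injective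
  let eI : (bc R B).obj (ModuleCat.of R N) ≅ ModuleCat.of B P := e.toModuleIso
  let eI' : (bc R B).obj (ModuleCat.of R N') ≅ ModuleCat.of B P' := e'.toModuleIso
  have h2 : (bc R B).map (ModuleCat.ofHom g) = eI.hom ≫ ModuleCat.ofHom h ≫ eI'.inv := by
    apply ModuleCat.hom_ext
    apply LinearMap.ext
    intro x
    change g.baseChange B x = e'.symm (h (e x))
    rw [← comm, LinearEquiv.symm_apply_apply]
  have h3 : (localCohomology (𝔮.map (algebraMap R B)) i).map (ModuleCat.ofHom h) = 0 := by
    apply ModuleCat.hom_ext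
    apply LinearMap.ext
    intro z
    exact h0 z
  have h4 : (localCohomology (𝔮.map (algebraMap R B)) i).map
      ((bc R B).map (ModuleCat.ofHom g)) = 0 := by
    rw [h2, Functor.map_comp, Functor.map_comp, h3, Limits.zero_comp, Limits.comp_zero]
  have h5 : (bc R B ⋙ localCohomology (𝔮.map (algebraMap R B)) i).map (ModuleCat.ofHom g) = 0 := h4
  have h6 : E.hom.app (ModuleCat.of R N) ≫
      (bc R B ⋙ localCohomology (𝔮.map (algebraMap R B)) i).map (ModuleCat.ofHom g) = 0 := by
    rw [h5, Limits.comp_zero]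
  rw [h6] at h1
  exact hinj (h1.trans (LinearMap.map_zero _).symm)

section fil

variable (I : Ideal R) {M M' : Type u} [AddCommGroup M] [Module R M] [AddCommGroup M'] [Module B M']
  [Module R M'] [IsScalarTower R B M'] (f : M →ₗ[R] M') (hf : IsBaseChange B f)

include hf in
theorem range_eq (n : ℕ) :
    LinearMap.range (hf.equiv.toLinearMap ∘ₗ (fil I M n).subtype.baseChange B) =
      fil (I.map (algebraMap R B)) M' n := by
  apply le_antisymm
  · rintro _ ⟨x, rfl⟩
    induction x using TensorProduct.induction_on with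
    | zero => rw [map_zero]; exact Submodule.zero_mem _
    | add x y hx hy => rw [map_add]; exact Submodule.add_mem _ hx hy
    | tmul b x =>
      change hf.equiv (b ⊗ₜ[R] x.1) ∈ _
      rw [hf.equiv_tmul]
      apply Submodule.smul_mem
      have hx : f x.1 ∈ (I ^ (n + 1) • (⊤ : Submodule R M)).map f := ⟨x.1, x.2, rfl⟩
      have key : ∀ y ∈ (I ^ (n + 1) • (⊤ : Submodule R M)), f y ∈
          fil (I.map (algebraMap R B)) M' n := by
        intro y hy
        refine Submodule.smul_induction_on hy ?_ ?_
        · intro r hr m _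
          rw [map_smul, ← algebraMap_smul B r (f m)]
          refine Submodule.smul_mem_smul ?_ trivial
          rw [← Ideal.map_pow]
          exact Ideal.mem_map_of_mem _ hr
        · intro y z hy hz
          rw [map_add]; exact Submodule.add_mem _ hy hz
      exact key _ x.2
  · rw [fil, Submodule.smul_le]
    intro b hb y _
    rw [← Ideal.map_pow] at hb
    -- both `b` and `y` may be taken to be generators
    have key : ∀ y : M', ∀ a ∈ I ^ (n + 1), algebraMap R B a • y ∈
        LinearMap.range (hf.equiv.toLinearMap ∘ₗ (fil I M n).subtype.baseChange B) := by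
      intro y a ha
      obtain ⟨x, rfl⟩ := hf.equiv.surjective y
      induction x using TensorProduct.induction_on with
      | zero => rw [map_zero, smul_zero]; exact Submodule.zero_mem _
      | add x y hx hy => rw [map_add, smul_add]; exact Submodule.add_mem _ hx hy
      | tmul c x =>
        refine ⟨c ⊗ₜ[R] ⟨a • x, Submodule.smul_mem_smul ha trivial⟩, ?_⟩
        change hf.equiv (c ⊗ₜ[R] (a • x)) = _
        rw [TensorProduct.tmul_smul, algebraMap_smul]
        exact hf.equiv.toLinearMap.map_smul_of_tower a (c ⊗ₜ[R] x)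
    refine Submodule.span_induction (p := fun b _ => ∀ y : M', b • y ∈
        LinearMap.range (hf.equiv.toLinearMap ∘ₗ (fil I M n).subtype.baseChange B))
      ?_ ?_ ?_ ?_ hb y
    · rintro _ ⟨a, ha, rfl⟩ y
      exact key y a ha
    · intro y; rw [zero_smul]; exact Submodule.zero_mem _
    · intro a b _ _ ha hb y
      rw [add_smul]
      exact Submodule.add_mem _ (ha y) (hb y)
    · intro c b _ hb y
      rw [smul_eq_mul, mul_smul]
      exact Submodule.smul_mem _ _ (hb y)

end fil

section sub

variable {M M' : Type u} [AddCommGroup M] [Module R M] [AddCommGroup M'] [Module B M']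
  [Module R M'] [IsScalarTower R B M'] (f : M →ₗ[R] M') (hf : IsBaseChange B f)

include hf in
theorem inj_aux (P : Submodule R M) : Function.Injective
    (hf.equiv.toLinearMap ∘ₗ P.subtype.baseChange B) := by
  refine hf.equiv.injective.comp ?_
  exact Module.Flat.lTensor_preserves_injective_linearMap (M := B) P.subtype
    (Submodule.injective_subtype _)

variable {P Q : Submodule R M} {P' Q' : Submodule B M'}
    (hP : LinearMap.range (hf.equiv.toLinearMap ∘ₗ P.subtype.baseChange B) = P')
    (hQ : LinearMap.range (hf.equiv.toLinearMap ∘ₗ Q.subtype.baseChange B) = Q')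

/-- `B ⊗ P = P'` -/
noncomputable def ebc : (B ⊗[R] P) ≃ₗ[B] P' :=
  (LinearEquiv.ofInjective _ (inj_aux B f hf P)).trans (LinearEquiv.ofEq _ _ hP)

theorem ebc_val (x : B ⊗[R] P) :
    (ebc B f hf hP x : M') = hf.equiv (P.subtype.baseChange B x) := rfl

theorem ebc_comm (h : P ≤ Q) (h' : P' ≤ Q') (x : B ⊗[R] P) :
    ebc B f hf hQ ((Submodule.inclusion h).baseChange B x) =
      Submodule.inclusion h' (ebc B f hf hP x) := by
  apply Subtype.ext
  rw [Submodule.coe_inclusion, ebc_val, ebc_val, ← Submodule.subtype_comp_inclusion P Q h,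
    LinearMap.baseChange_comp, LinearMap.comp_apply]

end sub

section fil

variable (I : Ideal R) {M M' : Type u} [AddCommGroup M] [Module R M] [AddCommGroup M'] [Module B M']
  [Module R M'] [IsScalarTower R B M'] (f : M →ₗ[R] M') (hf : IsBaseChange B f)

include hf in
/-- base change for the maps `H^i(I^{m+1}M) → H^i(I^{n+1}M)` -/
theorem bc_fil_zero (i : ℕ) {n m : ℕ} (h : n ≤ m)
    (h0 : ∀ z : LocCoh.H (𝔮.map (algebraMap R B)) i (fil (I.map (algebraMap R B)) M' m),
      LCTComp.Hmap (𝔮.map (algebraMap R B)) i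
        (Submodule.inclusion (fil_antitone (I.map (algebraMap R B)) M' h)) z = 0)
    (y : LocCoh.H 𝔮 i (fil I M m)) :
    (1 : B) ⊗ₜ[R] (LCTComp.Hmap 𝔮 i (Submodule.inclusion (fil_antitone I M h)) y) = 0 :=
  bc_zero B 𝔮 i _ _ (ebc B f hf (range_eq B I f hf m)) (ebc B f hf (range_eq B I f hf n))
    (ebc_comm B f hf (range_eq B I f hf m) (range_eq B I f hf n) (fil_antitone I M h)
      (fil_antitone (I.map (algebraMap R B)) M' h)) h0 y

end fil

end Groth.Agent.Sga2lef.H106.BC
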