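import Groth.Agent.LoccohB.FaltE
import Groth.Agent.LoccohA.LCTLes
import Groth.Agent.LoccohB.LocDualElt
import Groth.Agent.Localalg.Gam
import Mathlib.RingTheory.Ideal.Height
import Mathlib.RingTheory.Ideal.MinimalPrime.Noetherian

/-!
# Dévissage of maps on `HDT` which vanish locally at each prime
-/

set_option autoImplicit false
set_option linter.unusedVariables false
set_option linter.unusedSectionVars false

universe u

open CategoryTheory CategoryTheory.Limits CategoryTheory.Pretriangulated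

attribute [local instance] HasDerivedCategory.standard

namespace Groth.Agent.Sga2lef.H106.Dev

open Groth.Agent.LoccohB.FaltE
open Groth.Agent.LoccohA.LCTColim Groth.Agent.LoccohA.LCTBase Groth.Agent.LoccohA.LCTHom
  Groth.Agent.LoccohA.LCTGam Groth.Agent.LoccohA.LCTIso Groth.Agent.LoccohA.LCTLes

variable {A : Type u} [CommRing A]

/-- the projection in the derived category. -/
noncomputable abbrev prD {J J' : Ideal A} (h : J ≤ J') :
    Dual.inD A (A ⧸ J) ⟶ Dual.inD A (A ⧸ J') :=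
  (DerivedCategory.singleFunctor (ModuleCat.{u} A) 0).map (pr h)

section kinj

variable [IsNoetherianRing A] (L : CochainComplex (ModuleCat.{u} A) ℤ) [L.IsKInjective]
  (hL : ∀ n, Injective (L.X n))

theorem pr_comp_ofElt {M : ModuleCat.{u} A} {J J' : Ideal A} (h : J ≤ J') (x : M)
    (hx : ∀ a ∈ J', a • x = 0) : pr h ≫ ofElt J' x hx = ofElt J x (fun a ha => hx a (h ha)) := by
  apply quot_hom_ext
  rfl

theorem ofElt_d (J : Ideal A) {i j : ℤ} (x : L.X i) (hx : ∀ a ∈ J, a • x = 0) :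
    ofElt J x hx ≫ L.d i j = ofElt J ((L.d i j).hom x) (fun a ha => by
      rw [← map_smul, hx a ha, map_zero]) := by
  apply quot_hom_ext
  change (L.d i j).hom ((ofElt J x hx).hom (Submodule.Quotient.mk 1)) =
    (ofElt J ((L.d i j).hom x) _).hom (Submodule.Quotient.mk 1)
  rw [ofElt_apply, ofElt_apply, one_smul, one_smul]

theorem ofElt_sub {M : ModuleCat.{u} A} (J : Ideal A) (x y : M) (hx : ∀ a ∈ J, a • x = 0)
    (hy : ∀ a ∈ J, a • y = 0) : ofElt J (x - y) (fun a ha => by rw [smul_sub, hx a ha, hy a ha,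
      sub_self]) = ofElt J x hx - ofElt J y hy := by
  apply quot_hom_ext
  change (1 : A) • (x - y) = (1 : A) • x - (1 : A) • y
  rw [smul_sub]

theorem ofElt_smul {M : ModuleCat.{u} A} (J : Ideal A) (r : A) (x : M) (hx : ∀ a ∈ J, a • x = 0) :
    ofElt J (r • x) (fun a ha => by rw [smul_comm, hx a ha, smul_zero]) = r • ofElt J x hx := by
  apply quot_hom_ext
  change (1 : A) • (r • x) = r • ((1 : A) • x)
  rw [one_smul, one_smul]

theorem eq_ofElt {M : ModuleCat.{u} A} (J : Ideal A) (f : ModuleCat.of A (A ⧸ J) ⟶ M) :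
    f = ofElt J (f.hom (Submodule.Quotient.mk (1 : A))) (fun _ ha => smul_apply_mk_one f ha) := by
  apply quot_hom_ext
  rw [ofElt_apply, one_smul]

variable {L}

/-- the class of a cycle killed by `J`. -/
noncomputable def cl {n : ℤ} (J : Ideal A) (x : L.X n) (hx : ∀ a ∈ J, a • x = 0)
    (hd : (L.d n (n + 1)).hom x = 0) : Dual.inD A (A ⧸ J) ⟶ (DerivedCategory.Q.obj L)⟦n⟧ :=
  homQ (ofElt J x hx) (by
    rw [ofElt_d]
    apply quot_hom_ext
    rw [ofElt_apply, hd, smul_zero]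
    rfl)

theorem exists_cl {n : ℤ} (J : Ideal A) (f : Dual.inD A (A ⧸ J) ⟶ (DerivedCategory.Q.obj L)⟦n⟧) :
    ∃ (x : L.X n) (hx : ∀ a ∈ J, a • x = 0) (hd : (L.d n (n + 1)).hom x = 0), cl J x hx hd = f := by
  obtain ⟨g, hg, rfl⟩ := homQ_surjective f
  refine ⟨g.hom (Submodule.Quotient.mk (1 : A)), fun _ ha => smul_apply_mk_one g ha,
    apply_mk_one_mem_ker g hg, ?_⟩
  unfold cl
  congr 1
  exact (eq_ofElt J g).symm

theorem prD_cl {n : ℤ} {J J' : Ideal A} (h : J ≤ J') (x : L.X n) (hx : ∀ a ∈ J', a • x = 0)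
    (hd : (L.d n (n + 1)).hom x = 0) :
    prD h ≫ cl J' x hx hd = cl J x (fun a ha => hx a (h ha)) hd := by
  unfold cl
  rw [← homQ_precomp]
  congr 1
  exact pr_comp_ofElt h x hx

theorem cl_eq_zero_iff {n : ℤ} (J : Ideal A) (x : L.X n) (hx : ∀ a ∈ J, a • x = 0)
    (hd : (L.d n (n + 1)).hom x = 0) :
    cl J x hx hd = 0 ↔ ∃ w : L.X (n - 1), (∀ a ∈ J, a • w = 0) ∧ (L.d (n - 1) n).hom w = x := by
  unfold cl
  rw [homQ_eq_zero_iff _ _ (n - 1) (by omega)]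
  constructor
  · rintro ⟨g, hg⟩
    refine ⟨g.hom (Submodule.Quotient.mk (1 : A)), fun _ ha => smul_apply_mk_one g ha, ?_⟩
    have := congrArg (fun z => z.hom (Submodule.Quotient.mk (1 : A))) hg
    have h2 : (ofElt J x hx).hom (Submodule.Quotient.mk (1 : A)) = x := one_smul A x
    exact this.trans h2
  · rintro ⟨w, hw, rfl⟩
    exact ⟨ofElt J w hw, ofElt_d L J w hw⟩

theorem smul_cl {n : ℤ} (J : Ideal A) (x : L.X n) (hx : ∀ a ∈ J, a • x = 0)
    (hd : (L.d n (n + 1)).hom x = 0) (r : A) :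
    r • cl J x hx hd = cl J (r • x) (fun a ha => by rw [smul_comm, hx a ha, smul_zero])
      (by rw [map_smul, hd, smul_zero]) := by
  have h1 := (homQL A L (ModuleCat.of A (A ⧸ J)) n).map_smul r ⟨ofElt J x hx, (by
    rw [mem_cyc, ofElt_d]
    apply quot_hom_ext
    rw [ofElt_apply, hd, smul_zero]
    rfl)⟩
  refine Eq.trans ?_ (h1.symm.trans ?_)
  · rfl
  · unfold cl homQL
    change homQ _ _ = homQ _ _
    congr 1
    exact (ofElt_smul J r x hx).symm

theorem sub_cl {n : ℤ} (J : Ideal A) (x y : L.X n) (hx : ∀ a ∈ J, a • x = 0)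
    (hy : ∀ a ∈ J, a • y = 0) (hd : (L.d n (n + 1)).hom x = 0) (hd' : (L.d n (n + 1)).hom y = 0) :
    cl J x hx hd - cl J y hy hd' = cl J (x - y) (fun a ha => by rw [smul_sub, hx a ha, hy a ha,
      sub_self]) (by rw [map_sub, hd, hd', sub_self]) := by
  have h1 := (homQL A L (ModuleCat.of A (A ⧸ J)) n).map_sub ⟨ofElt J x hx, (by
    rw [mem_cyc, ofElt_d]
    apply quot_hom_ext
    rw [ofElt_apply, hd, smul_zero]
    rfl)⟩ ⟨ofElt J y hy, (by
    rw [mem_cyc, ofElt_d]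
    apply quot_hom_ext
    rw [ofElt_apply, hd', smul_zero]
    rfl)⟩
  refine Eq.trans ?_ (h1.symm.trans ?_)
  · rfl
  · unfold cl homQL
    change homQ _ _ = homQ _ _
    congr 1
    exact (ofElt_sub J x y hx hy).symm

include hL in
/-- Divisibility: a class supported on `V(J)` and killed by `r` comes from `V(J) ∩ V(r)`. -/
theorem exists_smaller_kinj {n : ℤ} (J : Ideal A) (r : A)
    (x : Dual.inD A (A ⧸ J) ⟶ (DerivedCategory.Q.obj L)⟦n⟧)
    {J' : Ideal A} (hJ' : J' ≤ J)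
    (hV : PrimeSpectrum.zeroLocus (J' : Set A) ⊆ PrimeSpectrum.zeroLocus (J : Set A))
    (h : r • (prD hJ' ≫ x) = 0) :
    ∃ (J₁ J₂ : Ideal A) (h₁ : J₂ ≤ J) (h₂ : J₂ ≤ J₁)
      (x' : Dual.inD A (A ⧸ J₁) ⟶ (DerivedCategory.Q.obj L)⟦n⟧),
      PrimeSpectrum.zeroLocus (J₁ : Set A) ⊆
        PrimeSpectrum.zeroLocus (J : Set A) ∩ PrimeSpectrum.zeroLocus {r} ∧
      PrimeSpectrum.zeroLocus (J₂ : Set A) ⊆ PrimeSpectrum.zeroLocus (J : Set A) ∧
      prD h₂ ≫ x' = prD h₁ ≫ x := by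
  obtain ⟨e, he, hde, rfl⟩ := exists_cl J x
  rw [prD_cl, smul_cl, cl_eq_zero_iff] at h
  obtain ⟨w, hw, hdw⟩ := h
  have hwg : w ∈ gam (PrimeSpectrum.zeroLocus (J : Set A)) (L.X (n - 1)) :=
    mem_gam_of w J' hV hw
  have hinj : Module.Injective A (L.X (n - 1)) := by
    have := hL (n - 1)
    exact Module.injective_module_of_injective_object A (L.X (n - 1))
  have hinj' := gam_injective (M := L.X (n - 1)) (PrimeSpectrum.zeroLocus (J : Set A))
  obtain ⟨w', k, hw'⟩ := Groth.Agent.Localalg.Gam.div_of_injective r _ hinj' ⟨w, hwg⟩ 1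
  have hw'' : r ^ k • (w - r • w'.1) = 0 := by
    have := congrArg Subtype.val hw'
    rw [pow_one] at this
    exact this
  have hann : PrimeSpectrum.zeroLocus (Ideal.torsionOf A (L.X (n - 1)) w'.1 : Set A) ⊆
      PrimeSpectrum.zeroLocus (J : Set A) := w'.2
  let J₂ : Ideal A := J ⊓ Ideal.torsionOf A (L.X (n - 1)) w'.1
  let J₁ : Ideal A := J₂ ⊔ Ideal.span {r ^ (k + 1)}
  have hdd : (L.d n (n + 1)).hom ((L.d (n - 1) n).hom w'.1) = 0 := by
    have := L.d_comp_d (n - 1) n (n + 1)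
    exact congrArg (fun z => z.hom w'.1) this
  let e' : L.X n := e - (L.d (n - 1) n).hom w'.1
  have hJ₂e : ∀ a ∈ J₂, a • e' = 0 := by
    rintro a ⟨ha1, ha2⟩
    change a • (e - (L.d (n - 1) n).hom w'.1) = 0
    rw [smul_sub, he a ha1, ← map_smul]
    have : a • w'.1 = 0 := ha2
    rw [this, map_zero, sub_self]
  have hre : r ^ (k + 1) • e' = 0 := by
    change r ^ (k + 1) • (e - (L.d (n - 1) n).hom w'.1) = 0
    rw [pow_succ, mul_smul, smul_sub r, ← hdw, ← map_smul, ← map_sub, ← map_smul, hw'', map_zero]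
  have hJ₁e : ∀ a ∈ J₁, a • e' = 0 := by
    intro a ha
    obtain ⟨b, hb, c, hc, rfl⟩ := Submodule.mem_sup.1 ha
    obtain ⟨c, rfl⟩ := Ideal.mem_span_singleton'.1 hc
    rw [add_smul, hJ₂e b hb, mul_smul, hre, smul_zero, add_zero]
  have hde' : (L.d n (n + 1)).hom e' = 0 := by
    change (L.d n (n + 1)).hom (e - (L.d (n - 1) n).hom w'.1) = 0
    rw [map_sub, hde, hdd, sub_self]
  have hV₂ : PrimeSpectrum.zeroLocus (J₂ : Set A) ⊆ PrimeSpectrum.zeroLocus (J : Set A) :=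
    zeroLocus_inf_subset subset_rfl hann
  refine ⟨J₁, J₂, inf_le_left, le_sup_left, cl J₁ e' hJ₁e hde', ?_, hV₂, ?_⟩
  · refine Set.subset_inter ((PrimeSpectrum.zeroLocus_anti_mono ?_).trans hV₂) ?_
    · exact (le_sup_left : J₂ ≤ J₁)
    · intro p hp
      rw [PrimeSpectrum.mem_zeroLocus, Set.singleton_subset_iff]
      have h1 : r ^ (k + 1) ∈ p.asIdeal :=
        hp (Ideal.mem_sup_right (Ideal.mem_span_singleton_self _))
      exact p.isPrime.mem_of_pow_mem _ h1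
  · rw [← sub_eq_zero, prD_cl, prD_cl, sub_cl, cl_eq_zero_iff]
    refine ⟨-w'.1, fun a ha => ?_, ?_⟩
    · rw [smul_neg]
      have : a • w'.1 = 0 := ha.2
      rw [this, neg_zero]
    · change _ = (e - (L.d (n - 1) n).hom w'.1) - e
      rw [map_neg]
      abel

end kinj

section gen

variable [IsNoetherianRing A] {K K' : Dual.D A}

/-- **Step 1**: a class supported on `V(J)` and killed by `r` comes from `V(J) ∩ V(r)`. -/
theorem exists_smaller (a : ℤ) (hK : K.IsGE a) {n : ℤ} (J : Ideal A) (r : A)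
    (x : Dual.inD A (A ⧸ J) ⟶ K⟦n⟧)
    (h : r • dι (PrimeSpectrum.zeroLocus (J : Set A)) K n J subset_rfl x = 0) :
    ∃ (J₁ : Ideal A) (x' : Dual.inD A (A ⧸ J₁) ⟶ K⟦n⟧),
      PrimeSpectrum.zeroLocus (J₁ : Set A) ⊆
        PrimeSpectrum.zeroLocus (J : Set A) ∩ PrimeSpectrum.zeroLocus {r} ∧
      ∀ (T : Set (PrimeSpectrum A)) (hJ : PrimeSpectrum.zeroLocus (J : Set A) ⊆ T)
        (hJ₁ : PrimeSpectrum.zeroLocus (J₁ : Set A) ⊆ T), dι T K n J₁ hJ₁ x' = dι T K n J hJ x := by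
  obtain ⟨L, h1, h2, ⟨e⟩⟩ := exists_injective_rep K a hK
  have h4 : L.IsKInjective := CochainComplex.isKInjective_of_injective L a
  rw [← map_smul] at h
  obtain ⟨J', hV, hle, h0⟩ := dι_eq_zero _ h
  have h0' : r • (prD hle ≫ (x ≫ e.hom⟦n⟧')) = 0 := by
    rw [← Category.assoc, ← Linear.smul_comp, ← Linear.comp_smul, h0, Limits.zero_comp]
  obtain ⟨J₁, J₂, h₁, h₂, x', hV1, hV2, hx⟩ := exists_smaller_kinj h2 J r (x ≫ e.hom⟦n⟧') hle hV h0'
  refine ⟨J₁, x' ≫ e.inv⟦n⟧', hV1, fun T hJ hJ₁ => ?_⟩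
  rw [← dι_pr T hJ₁ (hV2.trans hJ) h₂, ← dι_pr T hJ (hV2.trans hJ) h₁]
  congr 1
  have h5 := congrArg (fun z => z ≫ e.inv⟦n⟧') hx
  simp only [Category.assoc] at h5
  rw [h5, ← Functor.map_comp, e.hom_inv_id, CategoryTheory.Functor.map_id, Category.comp_id]

/-- a map is zero on the local cohomology at the prime `q`. -/
def ZeroAt (q : Ideal A) {X Y : Dual.D A} (φ : X ⟶ Y) : Prop :=
  ∀ (M : ℕ) (f : Dual.inD A (A ⧸ q ^ M) ⟶ X), ∃ t : A, t ∉ q ∧ ∃ (m : ℕ) (h : M ≤ m),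
    t • (LoccohB.LocDualElt.tr q h ≫ f ≫ φ) = 0

theorem exists_mul_pow_le (q J : Ideal A) (hq : q ∈ J.minimalPrimes) :
    ∃ (s : A) (_ : s ∉ q) (M : ℕ), ∀ a ∈ q ^ M, s * a ∈ J := by
  have hqp : q.IsPrime := hq.1.1
  -- the saturation of `J` at `q`
  let J' : Ideal A :=
    { carrier := {x | ∃ s : A, s ∉ q ∧ s * x ∈ J}
      zero_mem' := ⟨1, fun h => hqp.ne_top ((Ideal.eq_top_iff_one _).2 h), by simp⟩
      add_mem' := by
        rintro x y ⟨s, hs, hx⟩ ⟨t, ht, hy⟩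
        refine ⟨s * t, fun h => (hqp.mem_or_mem h).elim hs ht, ?_⟩
        have : s * t * (x + y) = t * (s * x) + s * (t * y) := by ring
        rw [this]
        exact J.add_mem (J.mul_mem_left _ hx) (J.mul_mem_left _ hy)
      smul_mem' := by
        rintro c x ⟨s, hs, hx⟩
        refine ⟨s, hs, ?_⟩
        have : s * (c • x) = c * (s * x) := by rw [smul_eq_mul]; ring
        rw [this]
        exact J.mul_mem_left _ hx }
  have hrad : q ≤ J'.radical := by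
    intro a ha
    have h := IsLocalization.AtPrime.radical_map_of_mem_minimalPrimes
      (A := Localization.AtPrime q) q J hq
    have h1 : algebraMap A (Localization.AtPrime q) a ∈ q.map (algebraMap A (Localization.AtPrime q)) :=
      Ideal.mem_map_of_mem _ ha
    rw [← h] at h1
    obtain ⟨k, hk⟩ := h1
    rw [← map_pow, IsLocalization.algebraMap_mem_map_algebraMap_iff q.primeCompl] at hk
    obtain ⟨s, hs, hsk⟩ := hk
    exact ⟨k, s, hs, hsk⟩
  obtain ⟨M, hM⟩ := Ideal.exists_pow_le_of_le_radical_of_fg hrad (IsNoetherian.noetherian q)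
  obtain ⟨S, hS⟩ := IsNoetherian.noetherian (q ^ M)
  have h1 : ∀ a : S, ∃ s : A, s ∉ q ∧ s * a.1 ∈ J := fun a => hM (by
    rw [← hS]
    exact Submodule.subset_span a.2)
  choose f hf hfJ using h1
  refine ⟨∏ a, f a, ?_, M, ?_⟩
  · intro h
    obtain ⟨a, _, ha⟩ := (hqp.prod_mem_iff).1 h
    exact hf a ha
  · have h2 : q ^ M ≤ J.colon (Ideal.span {∏ a, f a}) := by
      rw [← hS, Submodule.span_le]
      intro a ha
      rw [SetLike.mem_coe, Submodule.mem_colon]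
      intro b hb
      obtain ⟨c, rfl⟩ := Ideal.mem_span_singleton'.1 hb
      obtain ⟨d, hd⟩ := Finset.dvd_prod_of_mem f (Finset.mem_univ ⟨a, ha⟩)
      rw [hd, smul_eq_mul]
      have : a * (c * (f ⟨a, ha⟩ * d)) = (c * d) * (f ⟨a, ha⟩ * a) := by ring
      rw [this]
      exact J.mul_mem_left _ (hfJ ⟨a, ha⟩)
    intro a ha
    have := (Submodule.mem_colon.1 (h2 ha)) _ (Ideal.mem_span_singleton_self _)
    rwa [smul_eq_mul, mul_comm] at this

/-- **Step 2**: at a minimal prime of `J`. -/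
theorem exists_killing_at {J : Ideal A} {q : Ideal A} (hq : q ∈ J.minimalPrimes) {i : ℤ}
    {Y : Dual.D A} (x : Dual.inD A (A ⧸ J) ⟶ K⟦i⟧) (φ : K⟦i⟧ ⟶ K'⟦i⟧) (hφ : ZeroAt q φ) :
    ∃ r : A, r ∉ q ∧
      r • dι (PrimeSpectrum.zeroLocus (J : Set A)) K' i J subset_rfl (x ≫ φ) = 0 := by
  have hqp : q.IsPrime := hq.1.1
  obtain ⟨s, hs, M, hM⟩ := exists_mul_pow_le q J hq
  let μ : (A ⧸ q ^ M) →ₗ[A] (A ⧸ J) :=
    Submodule.mapQ (q ^ M) J (LinearMap.mulLeft A s) (fun a ha => hM a ha)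
  obtain ⟨t, ht, m, hm, h⟩ := hφ M ((DerivedCategory.singleFunctor (ModuleCat.{u} A) 0).map
    (ModuleCat.ofHom μ) ≫ x)
  have hst : s * t ∉ q := fun h => (hqp.mem_or_mem h).elim hs ht
  refine ⟨s * t, hst, ?_⟩
  let J' : Ideal A := J ⊓ q ^ m
  have hJ' : PrimeSpectrum.zeroLocus (J' : Set A) ⊆ PrimeSpectrum.zeroLocus (J : Set A) := by
    refine zeroLocus_inf_subset subset_rfl ?_
    refine zeroLocus_pow_subset ?_ m
    exact PrimeSpectrum.zeroLocus_anti_mono hq.1.2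
  rw [← map_smul, ← dι_pr _ subset_rfl hJ' (inf_le_left : J' ≤ J)]
  have key : (DerivedCategory.singleFunctor (ModuleCat.{u} A) 0).map
      (pr (inf_le_left : J' ≤ J)) ≫ ((s * t) • (x ≫ φ)) = 0 := by
    have h1 : (DerivedCategory.singleFunctor (ModuleCat.{u} A) 0).map
        (pr (inf_le_right : J' ≤ q ^ m)) ≫ LoccohB.LocDualElt.tr q hm ≫
        (DerivedCategory.singleFunctor (ModuleCat.{u} A) 0).map (ModuleCat.ofHom μ) =
        s • (DerivedCategory.singleFunctor (ModuleCat.{u} A) 0).map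
          (pr (inf_le_left : J' ≤ J)) := by
      unfold LoccohB.LocDualElt.tr LoccohB.LocDualElt.SF
      rw [← Functor.map_comp, ← Functor.map_comp, ← Functor.map_smul]
      congr 1
      apply quot_hom_ext
      change (Submodule.Quotient.mk (s * 1) : A ⧸ J) = s • (Submodule.Quotient.mk 1 : A ⧸ J)
      rw [← Submodule.Quotient.mk_smul, smul_eq_mul]
    have h2 := congrArg (fun z => (DerivedCategory.singleFunctor (ModuleCat.{u} A) 0).map
        (pr (inf_le_right : J' ≤ q ^ m)) ≫ z) h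
    rw [Limits.comp_zero, Linear.comp_smul, Category.assoc] at h2
    have h3 : (DerivedCategory.singleFunctor (ModuleCat.{u} A) 0).map
        (pr (inf_le_right : J' ≤ q ^ m)) ≫ LoccohB.LocDualElt.tr q hm ≫
        (DerivedCategory.singleFunctor (ModuleCat.{u} A) 0).map (ModuleCat.ofHom μ) ≫ x ≫ φ =
        s • ((DerivedCategory.singleFunctor (ModuleCat.{u} A) 0).map
          (pr (inf_le_left : J' ≤ J)) ≫ x ≫ φ) := by
      rw [← Linear.smul_comp, ← h1]
      simp only [Category.assoc]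
    rw [h3, smul_smul] at h2
    rw [Linear.comp_smul, mul_comm]
    exact h2
  rw [key, map_zero]

/-- **Step 3**: the dévissage step. -/
theorem devissage_step {T : Set (PrimeSpectrum A)}
    {i : ℤ} (a : ℤ) (hK' : K'.IsGE a) (φ : K⟦i⟧ ⟶ K'⟦i⟧)
    (hφ : ∀ q : PrimeSpectrum A, q ∈ T → ZeroAt q.asIdeal φ)
    (k : ℕ) (J : Ideal A) (hJ : PrimeSpectrum.zeroLocus (J : Set A) ⊆ T)
    (hk : ∀ p : PrimeSpectrum A, p ∈ PrimeSpectrum.zeroLocus (J : Set A) →
      (k : ℕ∞) ≤ p.asIdeal.height)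
    (x : Dual.inD A (A ⧸ J) ⟶ K⟦i⟧) :
    ∃ (J₁ : Ideal A) (hJ₁ : PrimeSpectrum.zeroLocus (J₁ : Set A) ⊆ T)
      (x' : Dual.inD A (A ⧸ J₁) ⟶ K'⟦i⟧),
      (∀ p : PrimeSpectrum A, p ∈ PrimeSpectrum.zeroLocus (J₁ : Set A) →
        ((k + 1 : ℕ) : ℕ∞) ≤ p.asIdeal.height) ∧
      dι T K' i J₁ hJ₁ x' = dι T K' i J hJ (x ≫ φ) := by
  let z := dι (PrimeSpectrum.zeroLocus (J : Set A)) K' i J subset_rfl (x ≫ φ)
  let 𝔞 : Ideal A := Ideal.torsionOf A _ z
  have hfin : J.minimalPrimes.Finite := J.finite_minimalPrimes_of_isNoetherianRing A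
  have hav : ∀ q ∈ J.minimalPrimes, ¬ 𝔞 ≤ q := by
    intro q hq hle
    have hqp : q.IsPrime := hq.1.1
    obtain ⟨r, hr, hrz⟩ := exists_killing_at (Y := K) hq x φ
      (hφ ⟨q, hqp⟩ (hJ hq.1.2))
    exact hr (hle hrz)
  obtain ⟨r, hr𝔞, hr⟩ : ∃ r ∈ 𝔞, ∀ q ∈ J.minimalPrimes, r ∉ q := by
    by_contra hcon
    push Not at hcon
    have h1 := (Ideal.subset_union_prime (s := hfin.toFinset) (f := fun q : Ideal A => q) ⊤ ⊤
      (fun q hq _ _ => ((hfin.mem_toFinset).1 hq).1.1) (I := 𝔞)).1 (by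
        intro r hr
        obtain ⟨q, hq, hrq⟩ := hcon r hr
        exact Set.mem_biUnion (by simpa using hq) hrq)
    obtain ⟨q, hq, hle⟩ := h1
    exact hav q ((hfin.mem_toFinset).1 hq) hle
  obtain ⟨J₁, x', hV, hx'⟩ := exists_smaller a hK' J r (x ≫ φ) hr𝔞
  have hJ₁ : PrimeSpectrum.zeroLocus (J₁ : Set A) ⊆ T :=
    (hV.trans Set.inter_subset_left).trans hJ
  refine ⟨J₁, hJ₁, x', ?_, hx' T hJ hJ₁⟩
  intro p hp
  obtain ⟨hpJ, hpr⟩ := hV hp
  have hrp : r ∈ p.asIdeal := by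
    rw [PrimeSpectrum.mem_zeroLocus, Set.singleton_subset_iff] at hpr
    exact hpr
  obtain ⟨q, hq, hqp⟩ := Ideal.exists_minimalPrimes_le (show J ≤ p.asIdeal from hpJ)
  have hqprime : q.IsPrime := hq.1.1
  have hlt : q < p.asIdeal := lt_of_le_of_ne hqp (fun h => hr q hq (h ▸ hrp))
  have h1 : (k : ℕ∞) ≤ q.height := hk ⟨q, hqprime⟩ hq.1.2
  have h2 : q.height + 1 ≤ p.asIdeal.height := by
    exact Ideal.height_add_one_le_of_lt_of_isPrime hlt
  push_cast
  exact (add_le_add_left h1 1).trans h2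

end gen

section system

variable [IsNoetherianRing A] (K : ℕ → Dual.D A) (ρ : ∀ {n m : ℕ}, n ≤ m → (K m ⟶ K n))
  (hρ : ∀ {n m k : ℕ} (h : n ≤ m) (h' : m ≤ k), ρ h' ≫ ρ h = ρ (h.trans h'))

include hρ in
/-- **Dévissage**: an inverse system which is locally pro-zero on the local cohomology at
the primes of `T` (uniformly) is pro-zero on the local cohomology with supports in `T`. -/
theorem proZero {T : Set (PrimeSpectrum A)} {i : ℤ} (a : ℤ) (hK : ∀ n, (K n).IsGE a)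
    (d : ℕ) (hd : ∀ p : PrimeSpectrum A, p.asIdeal.height ≤ (d : ℕ∞))
    (h0 : ∀ n : ℕ, ∃ (m : ℕ) (h : n ≤ m), ∀ q : PrimeSpectrum A, q ∈ T →
      ZeroAt q.asIdeal ((ρ h)⟦i⟧')) (n : ℕ) :
    ∃ (m : ℕ) (h : n ≤ m), ∀ y : Dual2.HDT A T (K m) i, hmap T ((ρ h)⟦i⟧') y = 0 := by
  have key : ∀ (k : ℕ) (n : ℕ), ∃ (m : ℕ) (h : n ≤ m), ∀ y : Dual2.HDT A T (K m) i,
      ∃ (J : Ideal A) (hJ : PrimeSpectrum.zeroLocus (J : Set A) ⊆ T)
        (x : Dual.inD A (A ⧸ J) ⟶ (K n)⟦i⟧),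
        (∀ p : PrimeSpectrum A, p ∈ PrimeSpectrum.zeroLocus (J : Set A) →
          (k : ℕ∞) ≤ p.asIdeal.height) ∧ dι T (K n) i J hJ x = hmap T ((ρ h)⟦i⟧') y := by
    intro k
    induction k with
    | zero =>
      intro n
      refine ⟨n, le_rfl, fun y => ?_⟩
      obtain ⟨J, hJ, x, hx⟩ := exists_rep T (hmap T ((ρ le_rfl)⟦i⟧') y)
      exact ⟨J, hJ, x, fun _ _ => by simp, hx⟩
    | succ k ih =>
      intro n
      obtain ⟨n', hn', h1⟩ := h0 n
      obtain ⟨m, hm, h2⟩ := ih n'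
      refine ⟨m, hn'.trans hm, fun y => ?_⟩
      obtain ⟨J, hJ, x, hk, hx⟩ := h2 y
      obtain ⟨J₁, hJ₁, x', hk', hx'⟩ := devissage_step a (hK n) ((ρ hn')⟦i⟧') h1 k J hJ hk x
      refine ⟨J₁, hJ₁, x', hk', ?_⟩
      rw [hx', ← hρ hn' hm, Functor.map_comp, hmap_comp, ← hx, hmap_ι]
  obtain ⟨m, hm, h1⟩ := key (d + 1) n
  refine ⟨m, hm, fun y => ?_⟩
  obtain ⟨J, hJ, x, hk, hx⟩ := h1 y
  rw [← hx]
  have hJt : J = ⊤ := by
    rw [← PrimeSpectrum.zeroLocus_empty_iff_eq_top]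
    rw [Set.eq_empty_iff_forall_notMem]
    intro p hp
    have h2 := (hk p hp).trans (hd p)
    rw [Nat.cast_le] at h2
    omega
  have h3 : (1 : A) • x = 0 := smul_inD_hom J 1 (by rw [hJt]; trivial) x
  rw [one_smul] at h3
  rw [h3, map_zero]

end system

end Groth.Agent.Sga2lef.H106.Dev
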