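import Groth.Agent.LoccohA.LCTComp
import Mathlib.Algebra.Homology.DerivedCategory.SingleTriangle

/-!
# From pro-vanishing of `H^i_T(F_n)` to bijectivity of `H^i_T(M) → lim H^i_T(M/F_n)`
-/

set_option autoImplicit false
set_option linter.unusedVariables false
set_option linter.unusedSectionVars false

universe u

open CategoryTheory CategoryTheory.Limits CategoryTheory.Pretriangulated

attribute [local instance] HasDerivedCategory.standard

namespace Groth.Agent.Sga2lef.H106.Final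

open Groth.Agent.LoccohA.LCTBase Groth.Agent.LoccohA.LCTLes Groth.Agent.LoccohA.LCTComp

variable {A : Type u} [CommRing A]

/-- the single functor -/
noncomputable abbrev SF : ModuleCat.{u} A ⥤ Dual.D A :=
  DerivedCategory.singleFunctor (ModuleCat.{u} A) 0

section tri

variable {M : Type u} [AddCommGroup M] [Module A M]

/-- `0 → P → M → M/P → 0` -/
noncomputable def scP (P : Submodule A M) : ShortComplex (ModuleCat.{u} A) :=
  ShortComplex.mk (ModuleCat.ofHom P.subtype) (ModuleCat.ofHom P.mkQ) (by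
    ext x
    exact (Submodule.Quotient.mk_eq_zero P).2 x.2)

theorem scP_shortExact (P : Submodule A M) : (scP P).ShortExact where
  exact := (ShortComplex.ShortExact.moduleCat_exact_iff_function_exact _).2
    (LinearMap.exact_subtype_mkQ P)
  mono_f := (ModuleCat.mono_iff_injective _).2 (Submodule.injective_subtype _)
  epi_g := (ModuleCat.epi_iff_surjective _).2 (Submodule.mkQ_surjective _)

/-- the projection `M/P → M/Q` -/
abbrev trP {P Q : Submodule A M} (h : P ≤ Q) : (M ⧸ P) →ₗ[A] (M ⧸ Q) :=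
  Submodule.mapQ P Q LinearMap.id h

/-- functoriality -/
noncomputable def scPmap {P Q : Submodule A M} (h : P ≤ Q) : scP P ⟶ scP Q where
  τ₁ := ModuleCat.ofHom (Submodule.inclusion h)
  τ₂ := 𝟙 _
  τ₃ := ModuleCat.ofHom (trP h)
  comm₁₂ := by
    ext x
    rfl
  comm₂₃ := by
    ext x
    rfl

/-- the triangle -/
noncomputable abbrev trgP (P : Submodule A M) : Triangle (Dual.D A) :=
  (scP_shortExact P).singleTriangle

theorem trgP_mem (P : Submodule A M) : trgP P ∈ distTriang (Dual.D A) :=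
  (scP_shortExact P).singleTriangle_distinguished

theorem conn_naturality {X Y : Triangle (Dual.D A)} (φ : X ⟶ Y) (n₀ n₁ : ℤ) (h : n₀ + 1 = n₁) :
    conn X n₀ n₁ h ≫ φ.hom₁⟦n₁⟧' = φ.hom₃⟦n₀⟧' ≫ conn Y n₀ n₁ h := by
  unfold conn
  have h1 : (shiftFunctorAdd' (Dual.D A) 1 n₀ n₁ (by omega)).inv.app X.obj₁ ≫ φ.hom₁⟦n₁⟧' =
    (φ.hom₁⟦(1 : ℤ)⟧')⟦n₀⟧' ≫ (shiftFunctorAdd' (Dual.D A) 1 n₀ n₁ (by omega)).inv.app Y.obj₁ :=
    ((shiftFunctorAdd' (Dual.D A) 1 n₀ n₁ (by omega)).inv.naturality φ.hom₁).symm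
  rw [Category.assoc, h1, ← Category.assoc, ← Functor.map_comp, φ.comm₃, Functor.map_comp,
    Category.assoc]

variable (T : Set (PrimeSpectrum A)) (i : ℕ)

/-- local cohomology in the derived category -/
noncomputable abbrev G (M : Type u) [AddCommGroup M] [Module A M] : Type (u + 1) :=
  Dual2.HDT A T (Dual.inD A M) (i : ℤ)

/-- functoriality -/
noncomputable abbrev Gm {M N : Type u} [AddCommGroup M] [Module A M] [AddCommGroup N] [Module A N]
    (f : M →ₗ[A] N) : G T i M →ₗ[A] G T i N :=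
  hmap T (((SF (A := A)).map (ModuleCat.ofHom f))⟦(i : ℤ)⟧')

theorem Gm_comp {M N L : Type u} [AddCommGroup M] [Module A M] [AddCommGroup N] [Module A N]
    [AddCommGroup L] [Module A L] (f : M →ₗ[A] N) (g : N →ₗ[A] L) (x : G T i M) :
    Gm T i (g ∘ₗ f) x = Gm T i g (Gm T i f x) := by
  unfold Gm
  rw [ModuleCat.ofHom_comp, Functor.map_comp, Functor.map_comp, hmap_comp]

theorem ex₂ (P : Submodule A M) (x : G T i M) (hx : Gm T i P.mkQ x = 0) :
    ∃ y : G T i P, Gm T i P.subtype y = x :=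
  (HDT_exact₂ T (trgP P) (trgP_mem P) (i : ℤ) x).1 hx

/-- the connecting map -/
noncomputable def Gδ (P : Submodule A M) : G T i (M ⧸ P) →ₗ[A] G T (i + 1) P :=
  hmap T (conn (trgP P) (i : ℤ) ((i + 1 : ℕ) : ℤ) (by push_cast; ring))

theorem ex₃ (P : Submodule A M) (x : G T i (M ⧸ P)) (hx : Gδ T i P x = 0) :
    ∃ y : G T i M, Gm T i P.mkQ y = x :=
  (HDT_exact₃ T (trgP P) (trgP_mem P) (i : ℤ) ((i + 1 : ℕ) : ℤ) (by push_cast; ring) x).1 hx

theorem Gδ_naturality {P Q : Submodule A M} (h : P ≤ Q) (x : G T i (M ⧸ P)) :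
    Gm T (i + 1) (Submodule.inclusion h) (Gδ T i P x) = Gδ T i Q (Gm T i (trP h) x) := by
  unfold Gδ Gm
  rw [← hmap_comp, ← hmap_comp]
  congr 2
  exact conn_naturality (ShortComplex.ShortExact.singleTriangle.map (scP_shortExact P)
    (scP_shortExact Q) (scPmap h)) _ _ _

theorem Gm_subtype_inclusion {P Q : Submodule A M} (h : P ≤ Q) (x : G T i P) :
    Gm T i Q.subtype (Gm T i (Submodule.inclusion h) x) = Gm T i P.subtype x := by
  rw [← Gm_comp, Submodule.subtype_comp_inclusion]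

theorem Gm_tr_mkQ {P Q : Submodule A M} (h : P ≤ Q) (x : G T i M) :
    Gm T i (trP h) (Gm T i P.mkQ x) = Gm T i Q.mkQ x := by
  rw [← Gm_comp]
  rfl

end tri

section lim

variable {M : Type u} [AddCommGroup M] [Module A M] (F : ℕ → Submodule A M) (hF : Antitone F)
  (T : Set (PrimeSpectrum A)) (s : ℕ)
  (hz : ∀ i : ℕ, i ≤ s + 1 → ∀ n : ℕ, ∃ (m : ℕ) (h : n ≤ m), ∀ y : G T i (F m),
    Gm T i (Submodule.inclusion (hF h)) y = 0)

include hz

theorem exists_inj (i : ℕ) (hi : i ≤ s + 1) : ∃ n₀ : ℕ, ∀ n, n₀ ≤ n → ∀ x : G T i M,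
    Gm T i (F n).mkQ x = 0 → x = 0 := by
  obtain ⟨n₀, h₀, h⟩ := hz i hi 0
  refine ⟨n₀, fun n hn x hx => ?_⟩
  have hx' : Gm T i (F n₀).mkQ x = 0 := by
    rw [← Gm_tr_mkQ T i (hF hn), hx, map_zero]
  obtain ⟨y, rfl⟩ := ex₂ T i (F n₀) x hx'
  rw [← Gm_subtype_inclusion T i (hF h₀), h, map_zero]

theorem exists_lift (i : ℕ) (hi : i ≤ s) (y : ∀ n : ℕ, G T i (M ⧸ F n))
    (hy : ∀ n : ℕ, Gm T i (trP (hF (Nat.le_succ n))) (y (n + 1)) = y n) :
    ∃ x : G T i M, ∀ n, Gm T i (F n).mkQ x = y n := by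
  have hy' : ∀ (n m : ℕ) (h : n ≤ m), Gm T i (trP (hF h)) (y m) = y n := by
    intro n m h
    induction m, h using Nat.le_induction with
    | base =>
      have : trP (hF (le_refl n)) = LinearMap.id := by ext x; rfl
      rw [this]
      unfold Gm
      have h1 : ModuleCat.ofHom (LinearMap.id : (M ⧸ F n) →ₗ[A] (M ⧸ F n)) =
        𝟙 (ModuleCat.of A (M ⧸ F n)) := rfl
      rw [h1, CategoryTheory.Functor.map_id, CategoryTheory.Functor.map_id, hmap_id]
    | succ m h ih =>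
      have h2 : trP (hF h) ∘ₗ trP (hF (Nat.le_succ m)) = trP (hF (h.trans (Nat.le_succ m))) := by
        ext x; rfl
      rw [← ih, ← hy m, ← Gm_comp, h2]
  have h1 : ∀ n, ∃ x : G T i M, Gm T i (F n).mkQ x = y n := by
    intro n
    apply ex₃
    obtain ⟨m, h, hm⟩ := hz (i + 1) (by omega) n
    rw [← hy' n m h, ← Gδ_naturality T i (hF h), hm]
  choose x hx using h1
  obtain ⟨n₀, hn₀⟩ := exists_inj F hF T s hz i (by omega)
  refine ⟨x n₀, fun n => ?_⟩
  rcases le_total n n₀ with h | h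
  · rw [← Gm_tr_mkQ T i (hF h), hx, hy' n n₀ h]
  · have h2 : x n₀ = x n := by
      rw [← sub_eq_zero]
      refine hn₀ n₀ le_rfl _ ?_
      rw [map_sub, hx, ← Gm_tr_mkQ T i (hF h), hx, hy' n₀ n h, sub_self]
    rw [h2, hx]

end lim

section HT

variable {M : Type u} [AddCommGroup M] [Module A M] (F : ℕ → Submodule A M) (hF : Antitone F)
  (T : Set (PrimeSpectrum A)) (s : ℕ)
  (hz : ∀ i : ℕ, i ≤ s + 1 → ∀ n : ℕ, ∃ (m : ℕ) (h : n ≤ m), ∀ y : G T i (F m),
    Gm T i (Submodule.inclusion (hF h)) y = 0)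

include hz

/-- injectivity for `HT` -/
theorem HT_injective (i : ℕ) (hi : i ≤ s + 1) (x : Dual2.HT T i M)
    (hx : ∀ n, HTmap T i (F n).mkQ x = 0) : x = 0 := by
  obtain ⟨n₀, hn₀⟩ := exists_inj F hF T s hz i hi
  apply (HTequiv T i M).injective
  rw [map_zero]
  refine hn₀ n₀ le_rfl _ ?_
  have h1 := HTequiv_map T i (F n₀).mkQ x
  rw [hx, map_zero] at h1
  exact h1.symm

/-- surjectivity for `HT` -/
theorem HT_surjective (i : ℕ) (hi : i ≤ s) (y : ∀ n : ℕ, Dual2.HT T i (M ⧸ F n))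
    (hy : ∀ n : ℕ, HTmap T i (trP (hF (Nat.le_succ n))) (y (n + 1)) = y n) :
    ∃ x : Dual2.HT T i M, ∀ n, HTmap T i (F n).mkQ x = y n := by
  obtain ⟨x, hx⟩ := exists_lift F hF T s hz i hi (fun n => HTequiv T i (M ⧸ F n) (y n))
    (fun n => by rw [← hy n, HTequiv_map])
  refine ⟨(HTequiv T i M).symm x, fun n => ?_⟩
  apply (HTequiv T i (M ⧸ F n)).injective
  rw [HTequiv_map, LinearEquiv.apply_symm_apply]
  exact hx n

end HT

end Groth.Agent.Sga2lef.H106.Final
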