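import Groth.Agent.FormalA.Core07

/-!
# From bijectivity of the comparison with formal cohomology to pro-vanishing

If `H^i_m(M) → lim H^i_m(M/I^{n+1}M)` is bijective for `i ≤ s` and injective for `i = s + 1`, then the
systems `H^i_m(I^{n+1}M)`, `i ≤ s + 1`, are pro-zero.
-/

set_option autoImplicit false
set_option linter.unusedVariables false
set_option linter.unusedSectionVars false
universe u

open CategoryTheory Limits
open Groth.Agent.Localalg.DeltaFun Groth.Agent.Localalg.Gam Groth.Agent.Localalg.LCAbs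
open Groth.Agent.Localalg

namespace Groth.Agent.Sga2lef.H106.LemC

open FormalA FormalA.AlgCore FormalA.KLim FormalA.Stab07 FormalA.Core07 IsLocalRing

section tower

variable {A : Type u} [CommRing A] {W : ℕ → Type u}
  [∀ n, AddCommGroup (W n)] [∀ n, Module A (W n)]
  (t : ∀ n m : ℕ, n ≤ m → (W m →ₗ[A] W n))
  (ht : ∀ (n m k : ℕ) (h : n ≤ m) (h' : m ≤ k) (x : W k), t n m h (t m k h' x) =
    t n k (h.trans h') x)

include ht in
/-- in a tower of Artinian modules the stable images are the images of the limit -/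
theorem exists_stable [∀ n, IsArtinian A (W n)] (n : ℕ) :
    ∃ (m : ℕ) (h : n ≤ m), ∀ w : W m, ∃ y : ∀ k, W k,
      (∀ k, t k (k + 1) (Nat.le_succ k) (y (k + 1)) = y k) ∧ y n = t n m h w := by
  let S : ℕ →o (Submodule A (W n))ᵒᵈ :=
    { toFun := fun k => OrderDual.toDual (LinearMap.range (t n (n + k) (Nat.le_add_right n k)))
      monotone' := by
        intro k l hkl
        change LinearMap.range _ ≤ LinearMap.range _
        rintro _ ⟨x, rfl⟩
        exact ⟨t (n + k) (n + l) (by omega) x, ht _ _ _ _ _ x⟩ }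
  obtain ⟨k₀, hk₀⟩ := IsArtinian.monotone_stabilizes S
  refine ⟨n + k₀, Nat.le_add_right n k₀, fun w => ?_⟩
  set v : W n := t n (n + k₀) (Nat.le_add_right n k₀) w with hv
  have hall : ∀ k, ∃ x : W (n + k), t n (n + k) (Nat.le_add_right n k) x = v := by
    intro k
    have h1 : v ∈ OrderDual.ofDual (S k₀) := ⟨w, rfl⟩
    rw [hk₀ (k₀ + k) (Nat.le_add_right _ _)] at h1
    obtain ⟨x, hx⟩ := h1
    exact ⟨t (n + k) (n + (k₀ + k)) (by omega) x, (ht _ _ _ _ _ x).trans hx⟩
  obtain ⟨w', hw1, hw2⟩ := exists_compatible (A := A) (W := fun k => W (n + k))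
    (V := fun _ => W n) (fun k l h => t (n + k) (n + l) (by omega))
    (fun _ _ _ => LinearMap.id)
    (fun a b c h h' x => ht (n + a) (n + b) (n + c) _ _ x)
    (fun k => t n (n + k) (Nat.le_add_right n k))
    (fun a b h x => ht n (n + a) (n + b) _ _ x) (fun _ => v) (fun _ _ _ => rfl) hall
  refine ⟨fun k => t k (n + k) (Nat.le_add_left k n) (w' k), fun k => ?_, ?_⟩
  · change t k (k + 1) _ (t (k + 1) (n + (k + 1)) _ (w' (k + 1))) = t k (n + k) _ (w' k)
    rw [ht, ← hw1 k, ht]
  · exact hw2 n

end tower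

variable {A : Type u} [CommRing A] [IsNoetherianRing A] [IsLocalRing A]

theorem inclusion_exact (I : Ideal A) (M : Type u) [AddCommGroup M] [Module A M] (n : ℕ) :
    Function.Exact (fil I M n).subtype (fil I M n).mkQ :=
  LinearMap.exact_subtype_mkQ _

/-- inclusions of the filtration -/
abbrev inc (I : Ideal A) (M : Type u) [AddCommGroup M] [Module A M] {n m : ℕ} (h : n ≤ m) :
    fil I M m →ₗ[A] fil I M n := Submodule.inclusion (fil_antitone I M h)

theorem inj_zero (J : Ideal A) {M N : Type u} [AddCommGroup M] [Module A M] [AddCommGroup N]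
    [Module A N] (f : M →ₗ[A] N) (hf : Function.Injective f) :
    Function.Injective ((baseCohF (lin_lc J)).map 0 f) := by
  rw [injective_iff_map_eq_zero]
  intro x hx
  have h1 := FormZero.ev0_map J (ModuleCat.ofHom f) x
  have h2 : ((lc J).D.T 0).map (ModuleCat.ofHom f) x = 0 := hx
  have h3 : f (FormZero.ev0 J (ModuleCat.of A M) x) = 0 := by
    refine h1.symm.trans ?_
    rw [h2]
    exact map_zero (FormZero.ev0 J (ModuleCat.of A N))
  have h4 : FormZero.ev0 J (ModuleCat.of A M) x = 0 := hf (h3.trans (map_zero f).symm)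
  exact FormZero.ev0_injective J (ModuleCat.of A M)
    (h4.trans (map_zero (FormZero.ev0 J (ModuleCat.of A M))).symm)

/-- Lemma C. -/
theorem proZero_local (I : Ideal A) (M : Type u) [AddCommGroup M] [Module A M] [Module.Finite A M]
    (s : ℕ) (hb : ∀ i ≤ s, Function.Surjective (toLim (lin_lc (maximalIdeal A)) I i M))
    (hi : ∀ i ≤ s + 1, Function.Injective (toLim (lin_lc (maximalIdeal A)) I i M))
    (i : ℕ) (his : i ≤ s + 1) (n : ℕ) :
    ∃ (m : ℕ) (h : n ≤ m), ∀ z : (baseCohF (lin_lc (maximalIdeal A))).obj i (fil I M m),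
      (baseCohF (lin_lc (maximalIdeal A))).map i (inc I M h) z = 0 := by
  let H := baseCohF (lin_lc (maximalIdeal A))
  have hart : ∀ (N : Type u) [AddCommGroup N] [Module A N] [Module.Finite A N] (i : ℕ),
      IsArtinian A (H.obj i N) := fun N _ _ _ i =>
    Localalg.NonVan.isArtinian_H (Localalg.LCIface.iface _) i N
  -- the kernels of `H^i(M) → H^i(M_m)` vanish for large `m`
  obtain ⟨m₁, hm₁⟩ : ∃ m₁ : ℕ, ∀ m, m₁ ≤ m → ∀ x : H.obj i M,
      H.map i (fil I M m).mkQ x = 0 → x = 0 := by
    let S : ℕ →o (Submodule A (H.obj i M))ᵒᵈ :=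
      { toFun := fun k => OrderDual.toDual (LinearMap.ker (H.map i (fil I M k).mkQ))
        monotone' := by
          intro k l hkl
          change LinearMap.ker _ ≤ LinearMap.ker _
          intro x hx
          rw [LinearMap.mem_ker] at hx ⊢
          have h1 : (fil I M k).mkQ = tr (fil I M) (fil_antitone I M) hkl ∘ₗ (fil I M l).mkQ := by
            ext y; rfl
          rw [CohF_map_congr H i h1, H.map_comp, hx, map_zero] }
    have := hart M i
    obtain ⟨k₀, hk₀⟩ := IsArtinian.monotone_stabilizes S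
    refine ⟨k₀, fun m hm x hx => ?_⟩
    apply hi i his
    rw [map_zero]
    apply Subtype.ext
    funext k
    change H.map i (fil I M k).mkQ x = 0
    have h1 : x ∈ OrderDual.ofDual (S m) := hx
    rcases le_total k m with h | h
    · exact S.monotone h h1
    · rw [← hk₀ m hm, hk₀ k (hm.trans h)] at h1
      exact h1
  rcases i with _ | i
  · refine ⟨max n m₁, le_max_left _ _, fun z => ?_⟩
    have h1 : z = 0 := by
      apply inj_zero (maximalIdeal A) (fil I M (max n m₁)).subtype (Submodule.injective_subtype _)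
      rw [map_zero]
      refine hm₁ (max n m₁) (le_max_right _ _) _ ?_
      change H.map 0 (fil I M (max n m₁)).mkQ (H.map 0 (fil I M (max n m₁)).subtype z) = 0
      rw [← H.map_comp, CohF_map_congr H 0 (g := 0)
        (by ext x; exact (inclusion_exact I M _).apply_apply_eq_zero x), H.map_zero']
    rw [h1, map_zero]
  · have := fun k => hart (M ⧸ fil I M k) i
    obtain ⟨m₂, hm₂, h2⟩ := exists_stable (A := A)
      (W := fun k => H.obj i (M ⧸ fil I M k))
      (fun k l h => H.map i (tr (fil I M) (fil_antitone I M) h))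
      (fun a b c h h' x => map_tr_tr (lin_lc (maximalIdeal A)) i _ (fil_antitone I M) h h' x) n
    have hnm : n ≤ max m₁ m₂ := hm₂.trans (le_max_right _ _)
    refine ⟨max m₁ m₂, hnm, fun z => ?_⟩
    have h1 : H.map (i + 1) (fil I M (max m₁ m₂)).subtype z = 0 := by
      refine hm₁ (max m₁ m₂) (le_max_left _ _) _ ?_
      rw [← H.map_comp, CohF_map_congr H _ (g := 0)
        (by ext x; exact (inclusion_exact I M _).apply_apply_eq_zero x), H.map_zero']
    obtain ⟨w, rfl⟩ := H.ex₁' (fil I M (max m₁ m₂)).subtype (fil I M (max m₁ m₂)).mkQ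
      (Submodule.injective_subtype _) (Submodule.mkQ_surjective _) (inclusion_exact I M _) i z h1
    change H.map (i + 1) (inc I M hnm) _ = 0
    rw [base_conn_naturality (lin_lc (maximalIdeal A)) i _ _ _ _ _ (fil I M n).subtype
      (fil I M n).mkQ (Submodule.injective_subtype _) (Submodule.mkQ_surjective _)
      (inclusion_exact I M _) (inc I M hnm) LinearMap.id (tr (fil I M) (fil_antitone I M) hnm)
      (by ext x; rfl) (by ext x; rfl)]
    obtain ⟨y, hy1, hy2⟩ := h2 (H.map i (tr (fil I M) (fil_antitone I M) (le_max_right m₁ m₂)) w)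
    obtain ⟨x, hx⟩ := hb i (by omega) ⟨y, hy1⟩
    have h3 : H.map i (tr (fil I M) (fil_antitone I M) hnm) w = H.map i (fil I M n).mkQ x := by
      have h4 : H.map i (fil I M n).mkQ x = y n := congrArg (fun z => z.1 n) hx
      rw [h4, hy2, map_tr_tr]
    change H.conn _ _ _ _ _ i (H.map i (tr (fil I M) (fil_antitone I M) hnm) w) = 0
    rw [h3, H.conn_map]

end Groth.Agent.Sga2lef.H106.LemC
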