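import Groth.Agent.Sga2lef.H106.Dev
import Groth.Agent.LoccohB.LocDualFinal
import Groth.Agent.LoccohB.FaltF

/-!
# Local duality for maps and uniformity in the prime
-/

set_option autoImplicit false
set_option linter.unusedVariables false
set_option linter.unusedSectionVars false

universe u

open CategoryTheory CategoryTheory.Limits CategoryTheory.Pretriangulated

attribute [local instance] HasDerivedCategory.standard

namespace Groth.Agent.Sga2lef.H106.Unif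

open Groth.Agent.Sga2lef.H106.Dev
open Groth.Agent.LoccohB.LocDualBasic Groth.Agent.LoccohB.LocDualDev Groth.Agent.LoccohB.LocDualVan
  Groth.Agent.LoccohB.LocDualTors Groth.Agent.LoccohB.LocDualElt Groth.Agent.LoccohB.LocDualLoc
  Groth.Agent.LoccohB.LocDualInj Groth.Agent.LoccohB.LocDualBaer Groth.Agent.LoccohB.LocDualMod
  Groth.Agent.LoccohB.LocDualCx Groth.Agent.LoccohB.LocDualFinal
open Groth.Agent.LoccohA.DzExact Groth.Agent.LoccohA.DzExt Groth.Agent.LoccohA.DzDim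
  Groth.Agent.LoccohA.DzDual Groth.Agent.LoccohA.DzKappa Groth.Agent.LoccohA.DzOne

section

variable {A : Type u} [CommRing A] (p : Ideal A) [hp : p.IsPrime]

theorem ZeroAt.precomp {X Y Z : Dual.D A} {φ : X ⟶ Y} (h : ZeroAt p φ) (ψ : Z ⟶ X) :
    ZeroAt p (ψ ≫ φ) := by
  intro M f
  obtain ⟨t, ht, m, hm, h1⟩ := h M (f ≫ ψ)
  refine ⟨t, ht, m, hm, ?_⟩
  rw [Category.assoc] at h1
  exact h1

theorem zeroAt_iff_Hmap {X Y : Dual.D A} (φ : X ⟶ Y) :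
    ZeroAt p φ ↔ ∀ x : HL p X, Hmap p φ x = 0 := by
  constructor
  · intro h x
    refine HL_ind p (fun s hs m hm => smul_inj p hs m hm) (Hmap p φ) 0 ?_ x
    intro n f
    rw [Hmap_loc_inclN, LinearMap.zero_apply, loc_inclN_eq_zero_iff]
    obtain ⟨t, ht, m, hm, h1⟩ := h n f
    exact ⟨t, ht, m, hm, h1⟩
  · intro h M f
    have h1 := h (loc p _ (inclN p M f))
    rw [Hmap_loc_inclN, loc_inclN_eq_zero_iff] at h1
    obtain ⟨t, ht, m, hm, h1⟩ := h1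
    exact ⟨t, ht, m, hm, h1⟩

/-- Local duality for maps. -/
theorem Hmap_eq_zero_iff (W X Y : Dual.D A) (φ : X ⟶ Y) (hW : Module.Baer A (HL p W))
    (hX : B p W X) (hY : B p W Y) (hz : ∃ z : HL p W, z ≠ 0 ∧ ∀ a ∈ p, a • z = 0) :
    (∀ x : HL p X, Hmap p φ x = 0) ↔ ∀ y : Y ⟶ W, ∃ t : A, t ∉ p ∧ t • (φ ≫ y) = 0 := by
  constructor
  · intro h y
    by_contra hcon
    push Not at hcon
    obtain ⟨z, hz0, hz⟩ := hz
    let u : ULift.{u + 1} A →ₗ[A] A := (ULift.moduleEquiv (R := A) (M := A)).toLinearMap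
    obtain ⟨ψ, hψ⟩ := baer_extend_of_ker_le hW (LinearMap.toSpanSingleton A (X ⟶ W) (φ ≫ y) ∘ₗ u)
      (LinearMap.toSpanSingleton A (HL p W) z ∘ₗ u) (by
        intro t ht
        rw [LinearMap.mem_ker, LinearMap.comp_apply, LinearMap.toSpanSingleton_apply] at ht
        rw [LinearMap.mem_ker, LinearMap.comp_apply, LinearMap.toSpanSingleton_apply]
        refine hz (u t) ?_
        by_contra htp
        exact hcon (u t) htp ht)
    obtain ⟨x, rfl⟩ := hX.2 ψ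
    have h1 := hψ ⟨1⟩
    rw [LinearMap.comp_apply, LinearMap.comp_apply, LinearMap.toSpanSingleton_apply,
      LinearMap.toSpanSingleton_apply] at h1
    have h2 : u ⟨1⟩ = 1 := rfl
    rw [h2, one_smul, one_smul, Phi_apply, Hmap_comp, h x, map_zero] at h1
    exact hz0 h1.symm
  · intro h x
    apply hY.1
    rw [map_zero]
    ext y
    obtain ⟨t, ht, hty⟩ := h y
    refine smul_inj p ht _ ?_
    rw [Phi_apply, ← Hmap_comp, ← Hmap_smul, hty, Hmap_zero]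

end

section

variable {A : Type u} [CommRing A] [IsNoetherianRing A]

/-- Local duality for maps, over a ring with a dualizing complex. -/
theorem zeroAt_shift_iff (ω : Dual.D A) (hω : Dual.IsDualizing A ω) (δ : PrimeSpectrum A → ℤ)
    (hδ1 : ∀ (p : PrimeSpectrum A) (i : ℤ), (¬ VanAt A p.asIdeal (E ω i (Aq p))) ↔ i = -δ p)
    (p : PrimeSpectrum A) {K K' : Dual.D A} (φ : K ⟶ K') (c c' : ℤ)
    (hc : K.IsGE c) (hd : K.IsLE c') (hK : ∀ i : ℤ, Module.Finite A (Dual.HD A K i))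
    (hc' : K'.IsGE c) (hd' : K'.IsLE c') (hK' : ∀ i : ℤ, Module.Finite A (Dual.HD A K' i)) (i : ℤ) :
    ZeroAt p.asIdeal (φ⟦i⟧') ↔
      ∀ y : K' ⟶ ω⟦(-δ p - i : ℤ)⟧, ∃ t : A, t ∉ p.asIdeal ∧ t • (φ ≫ y) = 0 := by
  obtain ⟨h3, ⟨e, he1, he2⟩, hfin⟩ := data ω hω p (-δ p) (hδ1 p)
  have hB := B_complex p.asIdeal (ω⟦(-δ p : ℤ)⟧) h3 e he1 he2 hfin K c c' hc hd hK i
  have hB' := B_complex p.asIdeal (ω⟦(-δ p : ℤ)⟧) h3 e he1 he2 hfin K' c c' hc' hd' hK' i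
  have hW : Module.Baer A (HL p.asIdeal (ω⟦(-δ p : ℤ)⟧)) :=
    baer_HL p.asIdeal _ (h3 (-1) (by norm_num)) (h3 1 (by norm_num))
  have hz := exists_socle p.asIdeal (ω⟦(-δ p : ℤ)⟧) (h3 (-1) (by norm_num)) e he1
  rw [zeroAt_iff_Hmap, Hmap_eq_zero_iff p.asIdeal _ _ _ (φ⟦i⟧') hW hB hB' hz]
  let ε : ∀ K : Dual.D A, (K ⟶ ω⟦(-δ p - i : ℤ)⟧) ≃ₗ[A] (K⟦i⟧ ⟶ ω⟦(-δ p : ℤ)⟧) := fun K =>
    (Linear.homCongr A (Iso.refl K)
      ((shiftFunctorAdd' (Dual.D A) (-δ p) (-i) (-δ p - i) (by omega)).app ω)).trans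
      (shiftEquiv K (ω⟦(-δ p : ℤ)⟧) i (-i) (by omega))
  have hε : ∀ y : K' ⟶ ω⟦(-δ p - i : ℤ)⟧, ε K (φ ≫ y) = φ⟦i⟧' ≫ ε K' y := by
    intro y
    change ((𝟙 K ≫ (φ ≫ y)) ≫ _)⟦i⟧' ≫ _ = φ⟦i⟧' ≫ (((𝟙 K' ≫ y) ≫ _)⟦i⟧' ≫ _)
    rw [Category.id_comp, Category.id_comp, Category.assoc, Functor.map_comp, Category.assoc]
  constructor
  · intro h y
    obtain ⟨t, ht, h1⟩ := h (ε K' y)
    refine ⟨t, ht, ?_⟩
    rw [← hε, ← map_smul] at h1
    exact (LinearEquiv.map_eq_zero_iff (ε K)).1 h1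
  · intro h y
    obtain ⟨t, ht, h1⟩ := h ((ε K').symm y)
    refine ⟨t, ht, ?_⟩
    rw [← (ε K').apply_symm_apply y, ← hε, ← map_smul, h1, map_zero]

variable (K : ℕ → Dual.D A) (ρ : ∀ {n m : ℕ}, n ≤ m → (K m ⟶ K n))
  (hρ : ∀ {n m k : ℕ} (h : n ≤ m) (h' : m ≤ k), ρ h' ≫ ρ h = ρ (h.trans h'))

include hρ in
/-- **Uniformity**: the local vanishing can be made uniform in the prime. -/
theorem uniform (hdc : ∃ ω : Dual.D A, Dual.IsDualizing A ω) (c c' : ℤ)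
    (hc : ∀ n, (K n).IsGE c) (hd : ∀ n, (K n).IsLE c')
    (hK : ∀ (n : ℕ) (i : ℤ), Module.Finite A (Dual.HD A (K n) i))
    (T : Set (PrimeSpectrum A)) (N : ℕ)
    (h : ∀ q : PrimeSpectrum A, q ∈ T → ∀ i : ℕ, i ≤ N → ∀ n : ℕ, ∃ (m : ℕ) (h : n ≤ m),
      ZeroAt q.asIdeal ((ρ h)⟦(i : ℤ)⟧')) (n : ℕ) :
    ∃ (m : ℕ) (h : n ≤ m), ∀ q : PrimeSpectrum A, q ∈ T → ∀ i : ℕ, i ≤ N →
      ZeroAt q.asIdeal ((ρ h)⟦(i : ℤ)⟧') := by
  obtain ⟨ω, hω⟩ := hdc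
  obtain ⟨δ, hδ1, hδ2⟩ := exists_delta hω
  obtain ⟨a, b, hab⟩ := hω.finite_injective_dimension
  have hbd : ∀ p : PrimeSpectrum A, -b ≤ δ p ∧ δ p ≤ -a :=
    fun p => LoccohB.FaltF.delta_bounds a b hab δ hδ1 p
  have hstab : ∀ j : ℤ, ∃ m₀ : ℕ, ∀ (m : ℕ) (y : K n ⟶ ω⟦j⟧),
      ρ (Nat.le_add_right n m) ≫ y = 0 → ρ (Nat.le_add_right n m₀) ≫ y = 0 := by
    intro j
    have hfin : Module.Finite A (K n ⟶ ω⟦j⟧) :=
      LoccohB.FaltF.finite_hom hω (K n) c c' (hc n) (hd n) (hK n) j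
    let F : ℕ →o Submodule A (K n ⟶ ω⟦j⟧) :=
      { toFun := fun m => LinearMap.ker (Linear.leftComp A (ω⟦j⟧) (ρ (Nat.le_add_right n m)))
        monotone' := by
          intro m m' hm y hy
          rw [LinearMap.mem_ker] at hy ⊢
          change ρ _ ≫ y = 0 at hy
          change ρ _ ≫ y = 0
          rw [← hρ (Nat.le_add_right n m) (Nat.add_le_add_left hm n), Category.assoc, hy,
            comp_zero] }
    obtain ⟨m₀, hm₀⟩ := monotone_stabilizes_iff_noetherian.2 inferInstance F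
    refine ⟨m₀, fun m y hy => ?_⟩
    have h1 : y ∈ F (m₀ + m) := F.monotone (Nat.le_add_left m m₀) hy
    rw [← hm₀ (m₀ + m) (Nat.le_add_right _ _)] at h1
    exact h1
  choose m₀ hm₀ using hstab
  let S : Finset ℤ := Finset.Icc (a - N) b
  let m₁ : ℕ := S.sup m₀
  refine ⟨n + m₁, Nat.le_add_right n m₁, fun q hq i hi => ?_⟩
  rw [zeroAt_shift_iff ω hω δ hδ1 q _ c c' (hc _) (hd _) (hK _) (hc _) (hd _) (hK _)]
  intro y
  obtain ⟨m, hm, h1⟩ := h q hq i hi n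
  obtain ⟨k, rfl⟩ := Nat.exists_eq_add_of_le hm
  rw [zeroAt_shift_iff ω hω δ hδ1 q _ c c' (hc _) (hd _) (hK _) (hc _) (hd _) (hK _)] at h1
  obtain ⟨t, ht, h2⟩ := h1 y
  refine ⟨t, ht, ?_⟩
  rw [← Linear.comp_smul] at h2 ⊢
  have h3 := hm₀ _ k (t • y) h2
  have hmem : -δ q - i ∈ S := by
    rw [Finset.mem_Icc]
    have := hbd q
    have hi' : (i : ℤ) ≤ N := by exact_mod_cast hi
    omega
  have hle : m₀ (-δ q - i) ≤ m₁ := Finset.le_sup (f := m₀) hmem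
  rw [← hρ (Nat.le_add_right n (m₀ (-δ q - i))) (Nat.add_le_add_left hle n), Category.assoc, h3,
    comp_zero]

end

end Groth.Agent.Sga2lef.H106.Unif
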